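import Cfsg.Agent.E8Min.Act

set_option autoImplicit false
set_option linter.unusedSectionVars false

/-!
# Weight spaces of root subgroups of type E8: clearing and transfer (helper19)
-/

namespace Cfsg.Agent.E8Min

open Module Cfsg.Agent.H39 Cfsg.Agent.LSU Cfsg.Agent.LSSL

variable {F V : Type*} [Field F] [Fintype F] [AddCommGroup V] [Module ℂ V] [FiniteDimensional ℂ V]

namespace Act

variable (A : Act F V) {ψ : AddChar F ℂ}

theorem one_self {r0 : ℕ} {a : F} : one r0 a r0 = a := if_pos rfl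
theorem one_ne {r0 r : ℕ} {a : F} (h : r ≠ r0) : one r0 a r = 0 := if_neg h
theorem one_zero {r0 : ℕ} : one r0 (0 : F) = fun _ => 0 := by
  funext r; unfold one; split_ifs <;> rfl

theorem update_one_zero {r0 r : ℕ} {a : F} (h : r ≠ r0) : Function.update (one r0 a) r 0 = one r0 a := by
  rw [Function.update_eq_self_iff, one_ne h]

/-- the clearing step -/
theorem clear (hψ : ψ ≠ 0) {S : List ℕ} {r0 r1 s : ℕ} (h1 : pres S r0 r1 = true) (hr1 : r1 ∉ S) (hr0 : r0 ∈ S)
    (h2 : pres S r0 s = true) (hs : sm r1 s = r0) (h255 : r0 ≠ 255) (hne : s ≠ r1) (hneg : s ≠ 239 - r1) {a : F} (ha : a ≠ 0) :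
    A.d ψ S (one r0 a) = Fintype.card F * A.d ψ (r1 :: S) (one r0 a) := by
  classical
  rw [A.split_one hψ h1 hr1]
  have hr10 : r1 ≠ r0 := by rintro rfl; exact hr1 hr0
  have hs240 := lt_of_pres h2
  have hr1240 := lt_of_pres h1
  have hsm : sm r1 s ≠ 255 := by rw [hs]; exact h255
  have hC := A.C_ne r1 s hr1240 hs240 hne hneg hsm
  have key : ∀ b b' : F, A.d ψ (r1 :: S) (Function.update (one r0 a) r1 b) ≤ A.d ψ (r1 :: S) (Function.update (one r0 a) r1 b') := by
    intro b b'
    refine le_of_map (A.T s ((b' - b) / (A.C r1 s * a))) (A.T_inj hs240 _) fun v hv => ?_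
    rw [mem_W_cons] at hv ⊢
    have e : A.W ψ S (Function.update (one r0 a) r1 b) = A.W ψ S (one r0 a) :=
      A.W_congr ψ fun x hx => Function.update_of_ne (by rintro rfl; exact hr1 hx) _ _
    have e' : A.W ψ S (Function.update (one r0 a) r1 b') = A.W ψ S (one r0 a) :=
      A.W_congr ψ fun x hx => Function.update_of_ne (by rintro rfl; exact hr1 hx) _ _
    rw [e] at hv
    rw [e']
    refine ⟨fun t => ?_, A.T_mem_pres ψ h2 hv.2 _⟩
    rw [A.shift r1 s hr1240 hs240 hne hneg hsm, hs, hv.2 r0 hr0, map_smul, map_smul, hv.1, map_smul, smul_smul,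
      ← AddChar.map_add_eq_mul, one_self, Function.update_self, Function.update_self]
    congr 2
    field_simp
    ring
  have hall : ∀ b : F, A.d ψ (r1 :: S) (Function.update (one r0 a) r1 b) = A.d ψ (r1 :: S) (one r0 a) := by
    intro b
    have := le_antisymm (key b 0) (key 0 b)
    rwa [update_one_zero hr10] at this
  rw [Finset.sum_congr rfl fun b _ => hall b, Finset.sum_const, Finset.card_univ, smul_eq_mul]

/-- the list of clearing steps -/
def clr : List (ℕ × ℕ) → ℕ → List ℕ → Bool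
  | [], _, _ => true
  | (r1, s) :: L, r0, S => pres S r0 r1 && !(S.contains r1) && pres S r0 s && sm r1 s == r0 && !(s == r1) && !(s == 239 - r1) && clr L r0 (r1 :: S)

/-- the result of the clearing steps -/
def clS : List (ℕ × ℕ) → List ℕ → List ℕ
  | [], S => S
  | (r1, _) :: L, S => clS L (r1 :: S)

theorem clears (hψ : ψ ≠ 0) {r0 : ℕ} (h255 : r0 ≠ 255) {a : F} (ha : a ≠ 0) : ∀ (L : List (ℕ × ℕ)) (S : List ℕ), r0 ∈ S →
    clr L r0 S = true → A.d ψ S (one r0 a) = Fintype.card F ^ L.length * A.d ψ (clS L S) (one r0 a) := by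
  intro L
  induction L with
  | nil => intro S _ _; rw [List.length_nil, pow_zero, one_mul]; rfl
  | cons p L ih =>
    obtain ⟨r1, s⟩ := p
    intro S hS h
    have h' : (pres S r0 r1 && !(S.contains r1) && pres S r0 s && sm r1 s == r0 && !(s == r1) && !(s == 239 - r1) && clr L r0 (r1 :: S)) = true := h
    simp only [Bool.and_eq_true, beq_iff_eq, Bool.not_eq_true', beq_eq_false_iff_ne] at h'
    obtain ⟨⟨⟨⟨⟨⟨a1, a2⟩, a3⟩, a4⟩, a5⟩, a6⟩, a7⟩ := h'
    have a2' : r1 ∉ S := by
      intro hc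
      rw [List.contains_iff_mem.2 hc] at a2
      exact Bool.noConfusion a2
    rw [A.clear hψ a1 a2' hS a3 a4 h255 a5 a6 ha, ih (r1 :: S) (List.mem_cons_of_mem _ hS) a7, List.length_cons, pow_succ]
    show _ = _ * A.d ψ (clS L (r1 :: S)) (one r0 a)
    ring

/-- weights supported at two roots -/
def two (r r' : ℕ) (a b : F) : ℕ → F := fun x => if x = r then a else if x = r' then b else 0

theorem two_swap {r r' : ℕ} (h : r ≠ r') (a b : F) : two r r' a b = two r' r b a := by
  funext x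
  unfold two
  by_cases h1 : x = r
  · subst h1; rw [if_pos rfl, if_neg h, if_pos rfl]
  · by_cases h2 : x = r'
    · subst h2; rw [if_neg h1, if_pos rfl, if_pos rfl]
    · rw [if_neg h1, if_neg h2, if_neg h2, if_neg h1]

/-- condition for a shift of the coordinate `r` by the coordinate `r'` -/
def okp (R : List ℕ) (r r' s : ℕ) : Bool := ok (r :: r' :: R) s && sm r s == r' && !(s == r) && !(r' == 255) && !(r == r') &&
  (r' :: R).all fun x => x == s || sm x s == 255 || (!(sm x s == r) && !(sm x s == r'))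

theorem okp_le {R : List ℕ} {r r' s : ℕ} (h : okp R r r' s = true) {b : F} (hb : b ≠ 0) (a a' : F) :
    A.d ψ (r :: r' :: R) (two r r' a b) ≤ A.d ψ (r :: r' :: R) (two r r' a' b) := by
  unfold okp at h
  simp only [Bool.and_eq_true, beq_iff_eq, Bool.not_eq_true', beq_eq_false_iff_ne, List.all_eq_true, Bool.or_eq_true] at h
  obtain ⟨⟨⟨⟨⟨h1, h2⟩, h3⟩, h4⟩, h5⟩, h6⟩ := h
  have h1' := ok_iff.1 h1
  have hr := h1'.2 r List.mem_cons_self
  have hsm : sm r s ≠ 255 := by rw [h2]; exact h4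
  have hC := A.C_ne r s hr.1 h1'.1 h3 hr.2.1 hsm
  refine le_of_map (A.T s ((a' - a) / (A.C r s * b))) (A.T_inj h1'.1 _) fun v hv => ?_
  have h7 := A.T_mem ψ h1 hv ((a' - a) / (A.C r s * b))
  rwa [A.W_congr ψ (c' := two r r' a' b)] at h7
  intro x hx
  unfold sh
  rcases List.mem_cons.1 hx with rfl | hx
  · rw [if_neg (by rintro (e | e); exact h3 e.symm; exact hsm e), h2]
    unfold two
    rw [if_pos rfl, if_pos rfl, if_neg (Ne.symm h5), if_pos rfl]
    field_simp
    ring
  · have h8 := h6 x hx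
    have hxr : two r r' a b x = two r r' a' b x := by
      unfold two
      by_cases e : x = r
      · exfalso
        subst e
        rcases h8 with (e2 | e2) | e2
        · exact h3 e2.symm
        · exact hsm e2
        · exact e2.2 h2
      · rw [if_neg e, if_neg e]
    split_ifs with h9
    · exact hxr
    · have h10 : two r r' a b (sm x s) = 0 := by
        unfold two
        rw [if_neg (by tauto), if_neg (by tauto)]
      rw [h10, mul_zero, add_zero, hxr]

theorem pair_const {R : List ℕ} {r r' s s' : ℕ} (h : okp R r r' s = true) (h' : okp R r' r s' = true) {a b a' b' : F}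
    (h1 : a ≠ 0 ∨ b ≠ 0) (h2 : a' ≠ 0 ∨ b' ≠ 0) :
    A.d ψ (r :: r' :: R) (two r r' a b) = A.d ψ (r :: r' :: R) (two r r' a' b') := by
  have hne : r ≠ r' := by
    unfold okp at h
    simp only [Bool.and_eq_true, beq_iff_eq, Bool.not_eq_true', beq_eq_false_iff_ne] at h
    exact h.1.2
  have hsw : ∀ a b : F, A.d ψ (r :: r' :: R) (two r r' a b) = A.d ψ (r' :: r :: R) (two r' r b a) := by
    intro a b
    unfold d
    rw [two_swap hne, A.W_perm ψ (S' := r' :: r :: R)]
    intro x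
    simp only [List.mem_cons]
    tauto
  have k1 : ∀ a a' b : F, b ≠ 0 → A.d ψ (r :: r' :: R) (two r r' a b) = A.d ψ (r :: r' :: R) (two r r' a' b) :=
    fun a a' b hb => le_antisymm (A.okp_le h hb a a') (A.okp_le h hb a' a)
  have k2 : ∀ a b b' : F, a ≠ 0 → A.d ψ (r :: r' :: R) (two r r' a b) = A.d ψ (r :: r' :: R) (two r r' a b') := by
    intro a b b' ha
    rw [hsw, hsw a b']
    exact le_antisymm (A.okp_le h' ha b b') (A.okp_le h' ha b' b)
  have key : ∀ a b : F, (a ≠ 0 ∨ b ≠ 0) → A.d ψ (r :: r' :: R) (two r r' a b) = A.d ψ (r :: r' :: R) (two r r' 1 1) := by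
    intro a b hab
    by_cases hb : b = 0
    · have ha : a ≠ 0 := by tauto
      rw [k2 a b 1 ha, k1 a 1 1 one_ne_zero]
    · rw [k1 a 1 b hb, k2 1 b 1 one_ne_zero]
  rw [key a b h1, key a' b' h2]

/-- commutators act trivially on one-dimensional weight spaces -/
theorem triv {S : List ℕ} {r0 s1 s2 : ℕ} {a : F} (hd : A.d ψ S (one r0 a) = 1) (h1 : pres S r0 s1 = true) (h2 : pres S r0 s2 = true)
    (hne : s2 ≠ s1) (hneg : s2 ≠ 239 - s1) (hsm : sm s1 s2 ≠ 255) {v : V} (hv : v ∈ A.W ψ S (one r0 a)) (t : F) :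
    A.T (sm s1 s2) t v = v := by
  have hs1 := lt_of_pres h1
  have hs2 := lt_of_pres h2
  have hC := A.C_ne s1 s2 hs1 hs2 hne hneg hsm
  unfold d at hd
  obtain ⟨v0, hv0, hgen⟩ := finrank_eq_one_iff'.1 hd
  have hsc : ∀ s, pres S r0 s = true → ∀ u, ∃ α : ℂ, ∀ w ∈ A.W ψ S (one r0 a), A.T s u w = α • w := by
    intro s hs u
    obtain ⟨α, hα⟩ := hgen ⟨A.T s u v0, A.T_mem_pres ψ hs v0.2 u⟩
    refine ⟨α, fun w hw => ?_⟩
    obtain ⟨β, hβ⟩ := hgen ⟨w, hw⟩
    have e1 : A.T s u v0 = α • (v0 : V) := (congrArg Subtype.val hα).symm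
    have e2 : w = β • (v0 : V) := (congrArg Subtype.val hβ).symm
    rw [e2, map_smul, e1, smul_comm]
  obtain ⟨α, hα⟩ := hsc s1 h1 (t / A.C s1 s2)
  obtain ⟨β, hβ⟩ := hsc s2 h2 1
  have h3 := A.shift s1 s2 hs1 hs2 hne hneg hsm (t / A.C s1 s2) 1 v
  rw [hβ v hv, map_smul, hα v hv] at h3
  have e : A.C s1 s2 * (t / A.C s1 s2) * 1 = t := by field_simp
  rw [e] at h3
  -- T s2 1 (T s1 _ (T k t v)) = β • α • v = T s2 1 (T s1 _ v)
  have h4 : A.T s2 1 (A.T s1 (t / A.C s1 s2) v) = β • α • v := by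
    rw [hα v hv, map_smul, hβ v hv, smul_comm]
  rw [← h4] at h3
  exact (A.T_inj hs1 _ (A.T_inj hs2 _ h3)).symm

end Act

end Cfsg.Agent.E8Min
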