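import Cfsg.Agent.E8Min.Act3

set_option autoImplicit false
set_option linter.unusedSectionVars false

/-!
# Weight spaces of root subgroups of type E8: further steps (helper19)
-/

namespace Cfsg.Agent.E8Min

open Module Cfsg.Agent.H39 Cfsg.Agent.LSU Cfsg.Agent.LSSL

variable {F V : Type*} [Field F] [Fintype F] [AddCommGroup V] [Module ℂ V] [FiniteDimensional ℂ V]

namespace Act

variable (A : Act F V) {ψ : AddChar F ℂ}

/-- commutators act trivially on one-dimensional invariant spaces -/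
theorem triv2 {W0 : Submodule ℂ V} (hd : finrank ℂ W0 = 1) {s1 s2 : ℕ} (hs1 : s1 < 240) (hs2 : s2 < 240)
    (h1 : ∀ u, ∀ v ∈ W0, A.T s1 u v ∈ W0) (h2 : ∀ u, ∀ v ∈ W0, A.T s2 u v ∈ W0)
    (hne : s2 ≠ s1) (hneg : s2 ≠ 239 - s1) (hsm : sm s1 s2 ≠ 255) {v : V} (hv : v ∈ W0) (t : F) :
    A.T (sm s1 s2) t v = v := by
  have hC := A.C_ne s1 s2 hs1 hs2 hne hneg hsm
  obtain ⟨v0, hv0, hgen⟩ := finrank_eq_one_iff'.1 hd
  have hsc : ∀ s, (∀ u, ∀ v ∈ W0, A.T s u v ∈ W0) → ∀ u, ∃ α : ℂ, ∀ w ∈ W0, A.T s u w = α • w := by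
    intro s hs u
    obtain ⟨α, hα⟩ := hgen ⟨A.T s u v0, hs u _ v0.2⟩
    refine ⟨α, fun w hw => ?_⟩
    obtain ⟨β, hβ⟩ := hgen ⟨w, hw⟩
    have e1 : A.T s u v0 = α • (v0 : V) := (congrArg Subtype.val hα).symm
    have e2 : w = β • (v0 : V) := (congrArg Subtype.val hβ).symm
    rw [e2, map_smul, e1, smul_comm]
  obtain ⟨α, hα⟩ := hsc s1 h1 (t / A.C s1 s2)
  obtain ⟨β, hβ⟩ := hsc s2 h2 1
  have h3 := A.shift s1 s2 hs1 hs2 hne hneg hsm (t / A.C s1 s2) 1 v
  rw [hβ v hv, map_smul, hα v hv] at h3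
  have e : A.C s1 s2 * (t / A.C s1 s2) * 1 = t := by field_simp
  rw [e] at h3
  have h4 : A.T s2 1 (A.T s1 (t / A.C s1 s2) v) = β • α • v := by
    rw [hα v hv, map_smul, hβ v hv, smul_comm]
  rw [← h4] at h3
  exact (A.T_inj hs1 _ (A.T_inj hs2 _ h3)).symm

/-- `X_s` preserves the weight space of `S` supported at `r0`, provided the roots of `S'` act trivially -/
def pres2 (S S' : List ℕ) (r0 s : ℕ) : Bool := Nat.blt s 240 && S.all fun r => Nat.blt r 240 && !(s == 239 - r) &&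
  (r == s || sm r s == 255 || (S'.contains (sm r s) && !(sm r s == r0)))

theorem T_mem_pres2 {S S' : List ℕ} {r0 s : ℕ} (h : pres2 S S' r0 s = true) {a : F} (hW : A.W ψ S (one r0 a) ≤ A.W ψ S' (one r0 a))
    {v : V} (hv : v ∈ A.W ψ S (one r0 a)) (u : F) : A.T s u v ∈ A.W ψ S (one r0 a) := by
  unfold pres2 at h
  rw [Bool.and_eq_true, List.all_eq_true, Nat.blt_eq] at h
  obtain ⟨hs, h⟩ := h
  intro r hr t
  have h3 := h r hr
  simp only [Bool.and_eq_true, Bool.or_eq_true, Nat.blt_eq, beq_iff_eq, Bool.not_eq_true', beq_eq_false_iff_ne, List.contains_iff_mem] at h3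
  obtain ⟨⟨hr240, hrs⟩, h3⟩ := h3
  by_cases e1 : r = s
  · subst e1
    rw [← A.add r hs, add_comm, A.add r hs, hv r hr, map_smul]
  by_cases e2 : sm r s = 255
  · rw [← A.comm r s hr240 hs (Ne.symm e1) hrs e2, hv r hr, map_smul]
  · rw [A.shift r s hr240 hs (Ne.symm e1) hrs e2]
    have h4 : sm r s ∈ S' ∧ sm r s ≠ r0 := by tauto
    rw [hW hv _ h4.1, one_ne h4.2, zero_mul, AddChar.map_zero_eq_one, one_smul, hv r hr, map_smul]

/-- list version of `triv2` -/
def trv2 (S S' : List ℕ) (r0 : ℕ) (L : List (ℕ × ℕ)) : Bool := L.all fun p =>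
  pres2 S S' r0 p.1 && pres2 S S' r0 p.2 && !(p.2 == p.1) && !(p.2 == 239 - p.1) && !(sm p.1 p.2 == 255) && !(sm p.1 p.2 == r0)

theorem lt_of_pres2 {S S' : List ℕ} {r0 s : ℕ} (h : pres2 S S' r0 s = true) : s < 240 := by
  unfold pres2 at h
  rw [Bool.and_eq_true, Nat.blt_eq] at h
  exact h.1

theorem triv_list2 {S S' : List ℕ} {r0 : ℕ} {a : F} (hd : A.d ψ S (one r0 a) = 1) (hW : A.W ψ S (one r0 a) ≤ A.W ψ S' (one r0 a))
    {L : List (ℕ × ℕ)} (h : trv2 S S' r0 L = true) :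
    A.W ψ S (one r0 a) ≤ A.W ψ (L.map (fun p => sm p.1 p.2) ++ S') (one r0 a) := by
  unfold trv2 at h
  rw [List.all_eq_true] at h
  intro v hv r hr t
  rcases List.mem_append.1 hr with hr | hr
  · obtain ⟨p, hp, rfl⟩ := List.mem_map.1 hr
    have h1 := h p hp
    simp only [Bool.and_eq_true, Bool.not_eq_true', beq_eq_false_iff_ne] at h1
    obtain ⟨⟨⟨⟨⟨h1, h2⟩, h3⟩, h4⟩, h5⟩, h6⟩ := h1
    rw [A.triv2 hd (lt_of_pres2 h1) (lt_of_pres2 h2) (fun u v hv => A.T_mem_pres2 h1 hW hv u) (fun u v hv => A.T_mem_pres2 h2 hW hv u)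
      h3 h4 h5 hv, one_ne h6, zero_mul, AddChar.map_zero_eq_one, one_smul]
  · exact hW hv r hr t

/-- reflections, second version -/
theorem refl2 {i r r' : ℕ} {S S' : List ℕ} (hi : i < 8) (hr' : r' < 240) (hr : r = rf i r')
    (hS : ∀ x ∈ S, rf i x < 240 ∧ rf i x ∈ S' ∧ rf i (rf i x) = x ∧ x ≠ r ∧ rf i x ≠ r')
    (H : ∀ a : F, a ≠ 0 → 1 ≤ A.d ψ (r' :: S') (one r' a)) {a : F} (ha : a ≠ 0) :
    1 ≤ A.d ψ (r :: S) (one r a) := by
  obtain ⟨N, hN⟩ := A.refl i hi
  obtain ⟨η, hη, hN2⟩ := hN r' hr'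
  refine (H (a * η) (mul_ne_zero ha hη)).trans (le_of_map (N : V →ₗ[ℂ] V) N.injective fun v hv => ?_)
  rw [mem_W_cons] at hv ⊢
  refine ⟨fun t => ?_, fun x hx t => ?_⟩
  · have h1 := hN2 (η⁻¹ * t) v
    rw [mul_inv_cancel_left₀ hη, hv.1, one_self, map_smul, ← hr] at h1
    show A.T r t (N v) = _ • N v
    rw [← h1, one_self]
    congr 2
    field_simp
  · obtain ⟨k1, k2, k3, k4, k5⟩ := hS x hx
    obtain ⟨η', hη', hN3⟩ := hN (rf i x) k1
    have h1 := hN3 (η'⁻¹ * t) v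
    rw [mul_inv_cancel_left₀ hη', hv.2 _ k2, one_ne k5, zero_mul, AddChar.map_zero_eq_one, one_smul, k3] at h1
    show A.T x t (N v) = _ • N v
    rw [← h1, one_ne k4, zero_mul, AddChar.map_zero_eq_one, one_smul]

/-- the roots above `r` -/
def Hi (r : ℕ) : List ℕ := List.range' (r + 1) (239 - r)

theorem mem_Hi {r x : ℕ} (hr : r < 240) : x ∈ Hi r ↔ r < x ∧ x < 240 := by
  unfold Hi
  rw [List.mem_range'_1]
  omega

/-- condition for `pres (A ++ Hi r) r p` -/
def presF (B : List ℕ) (r p : ℕ) : Bool := Nat.blt p 240 && Nat.ble 120 p && B.all fun x => Nat.blt x 240 && !(p == 239 - x) &&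
  (x == p || sm x p == 255 || ((Nat.blt r (sm x p) || B.contains (sm x p)) && Nat.blt (sm x p) 240 && !(sm x p == r)))

/-- sums of positive roots -/
def monoChk (x : ℕ) : Bool := (List.range' 120 120).all fun p => sm x p == 255 || (Nat.blt x (sm x p) && Nat.blt (sm x p) 240)

theorem pres_of_presF (hm : ∀ x, 120 ≤ x → x < 240 → monoChk x = true) {B : List ℕ} {r p : ℕ} (hr : 120 ≤ r) (hr2 : r < 240)
    (h : presF B r p = true) : pres (B ++ Hi r) r p = true := by
  unfold presF at h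
  rw [Bool.and_eq_true, Bool.and_eq_true, Nat.blt_eq, Nat.ble_eq, List.all_eq_true] at h
  obtain ⟨⟨hp1, hp2⟩, h⟩ := h
  have hx : ∀ x ∈ B ++ Hi r, x < 240 ∧ p ≠ 239 - x ∧ (x = p ∨ sm x p = 255 ∨ (sm x p ∈ B ++ Hi r ∧ sm x p ≠ r)) := by
    intro x hx
    rcases List.mem_append.1 hx with hx | hx
    · have h3 := h x hx
      simp only [Bool.and_eq_true, Bool.or_eq_true, Nat.blt_eq, beq_iff_eq, Bool.not_eq_true', beq_eq_false_iff_ne, List.contains_iff_mem] at h3
      obtain ⟨⟨h4, h5⟩, h6⟩ := h3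
      refine ⟨h4, h5, ?_⟩
      rcases h6 with (h6 | h6) | ⟨⟨h6, h7⟩, h8⟩
      · exact Or.inl h6
      · exact Or.inr (Or.inl h6)
      · refine Or.inr (Or.inr ⟨?_, h8⟩)
        rw [List.mem_append]
        rcases h6 with h6 | h6
        · right
          rw [mem_Hi hr2]
          exact ⟨h6, h7⟩
        · exact Or.inl h6
    · rw [mem_Hi hr2] at hx
      refine ⟨hx.2, by omega, ?_⟩
      have h3 := hm x (by omega) hx.2
      unfold monoChk at h3
      rw [List.all_eq_true] at h3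
      have h4 := h3 p (by rw [List.mem_range'_1]; omega)
      simp only [Bool.and_eq_true, Bool.or_eq_true, Nat.blt_eq, beq_iff_eq] at h4
      rcases h4 with h4 | ⟨h4, h5⟩
      · exact Or.inr (Or.inl h4)
      · refine Or.inr (Or.inr ⟨?_, by omega⟩)
        rw [List.mem_append, mem_Hi hr2]
        right
        omega
  rw [pres_iff, ok_iff]
  refine ⟨⟨hp1, fun x h1 => ?_⟩, fun x h1 => ?_⟩
  · obtain ⟨a1, a2, a3⟩ := hx x h1
    exact ⟨a1, a2, a3.imp_right (Or.imp_right And.left)⟩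
  · obtain ⟨a1, a2, a3⟩ := hx x h1
    exact a3.imp_right (Or.imp_right And.right)

/-- the clearing steps above `r` -/
def clrF : List (ℕ × ℕ) → ℕ → List ℕ → Bool
  | [], _, _ => true
  | (r1, s) :: L, r0, B => presF B r0 r1 && !(B.contains r1) && Nat.blt r1 r0 && presF B r0 s && sm r1 s == r0 && !(s == r1) && clrF L r0 (r1 :: B)

theorem clr_of_clrF (hm : ∀ x, 120 ≤ x → x < 240 → monoChk x = true) {r : ℕ} (hr : 120 ≤ r) (hr2 : r < 240) :
    ∀ (L : List (ℕ × ℕ)) (B : List ℕ), clrF L r B = true → clr L r (B ++ Hi r) = true := by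
  intro L
  induction L with
  | nil => intro B _; rfl
  | cons p L ih =>
    obtain ⟨r1, s⟩ := p
    intro B h
    have h' : (presF B r r1 && !(B.contains r1) && Nat.blt r1 r && presF B r s && sm r1 s == r && !(s == r1) && clrF L r (r1 :: B)) = true := h
    simp only [Bool.and_eq_true, beq_iff_eq, Bool.not_eq_true', beq_eq_false_iff_ne, Nat.blt_eq] at h'
    obtain ⟨⟨⟨⟨⟨⟨a1, a2⟩, a3⟩, a4⟩, a5⟩, a6⟩, a7⟩ := h'
    have b1 := pres_of_presF hm hr hr2 a1
    have b4 := pres_of_presF hm hr hr2 a4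
    have b7 := ih (r1 :: B) a7
    have c1 : 120 ≤ r1 := by
      unfold presF at a1
      rw [Bool.and_eq_true, Bool.and_eq_true, Nat.ble_eq] at a1
      exact a1.1.2
    have c4 : 120 ≤ s := by
      unfold presF at a4
      rw [Bool.and_eq_true, Bool.and_eq_true, Nat.ble_eq] at a4
      exact a4.1.2
    have c2 : (B ++ Hi r).contains r1 = false := by
      rw [Bool.eq_false_iff]
      intro hc
      rw [List.contains_iff_mem, List.mem_append, mem_Hi hr2] at hc
      rcases hc with hc | hc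
      · exact not_contains a2 hc
      · omega
    show (pres (B ++ Hi r) r r1 && !((B ++ Hi r).contains r1) && pres (B ++ Hi r) r s && sm r1 s == r && !(s == r1) && !(s == 239 - r1) &&
      clr L r (r1 :: (B ++ Hi r))) = true
    rw [b1, b4, c2, a5]
    rw [List.cons_append] at b7
    rw [b7]
    simp only [beq_self_eq_true, Bool.and_true, Bool.not_false, Bool.true_and]
    simp only [Bool.and_eq_true, Bool.not_eq_true', beq_eq_false_iff_ne]
    exact ⟨a6, by omega⟩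

theorem mem_clS : ∀ (L : List (ℕ × ℕ)) (S : List ℕ) (x : ℕ), x ∈ clS L S → x ∈ L.map Prod.fst ∨ x ∈ S := by
  intro L
  induction L with
  | nil => intro S x h; exact Or.inr h
  | cons p L ih =>
    obtain ⟨r1, s⟩ := p
    intro S x h
    rcases ih (r1 :: S) x h with h1 | h1
    · exact Or.inl (List.mem_cons_of_mem _ h1)
    · rcases List.mem_cons.1 h1 with h2 | h2
      · left; rw [h2]; exact List.mem_cons_self
      · exact Or.inr h2

end Act

end Cfsg.Agent.E8Min
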