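import Cfsg.Agent.E8Min.Main2
import Cfsg.Agent.ChevU.CertUse
import Cfsg.Agent.ChevU.Gen
import Cfsg.Agent.S1031

set_option autoImplicit false
set_option linter.unusedSectionVars false

/-!
# Representations of the group of type E8 (helper19)
-/

namespace Cfsg.Agent.E8Min

open Module Cfsg.Lie Cfsg.Agent.ChevU

theorem hE8 : chevE8 ∈ [chevG2, chevB2, chevD4, chevF4, chevE6, chevE7, chevE8] := by simp

noncomputable def RF : RootFacts chevE8 := rootFacts hE8

variable (F : Type*) [Field F]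

theorem EF : ElemFacts chevE8 F := elemOfGood (Cfsg.Agent.Chev.good_of_mem hE8) F

variable {F}

/-- root elements -/
noncomputable def el (r : ℕ) (t : F) : chevE8.group F :=
  if h : r < 240 then ⟨xr RF (EF F) r t, xr_mem_group RF (EF F) h t⟩ else 1

theorem coe_el {r : ℕ} (h : r < 240) (t : F) : (el r t : GL chevE8.Idx F) = xr RF (EF F) r t := by
  unfold el
  rw [dif_pos h]

theorem el_add {r : ℕ} (h : r < 240) (s t : F) : el r (s + t) = el r s * el r t := by
  apply Subtype.ext
  rw [Subgroup.coe_mul, coe_el h, coe_el h, coe_el h, xr_add]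

theorem el_zero {r : ℕ} (h : r < 240) : el r (0 : F) = 1 := by
  apply Subtype.ext
  rw [coe_el h, xr_zero]
  rfl

theorem neg_E8 {r : ℕ} (h : r < 240) : chevE8.neg r = 239 - r := by
  rw [RF.neg_eq r h]
  rfl

theorem el_comm {r s : ℕ} (hr : r < 240) (hs : s < 240) (h1 : s ≠ r) (h2 : s ≠ 239 - r) (h : sm r s = 255) (t u : F) :
    el s u * el r t = el r t * el s u := by
  apply Subtype.ext
  rw [Subgroup.coe_mul, Subgroup.coe_mul, coe_el hr, coe_el hs]
  have h3 := comm_xu RF.tab (EF F) (r := r) (s := s) hr hs h1 (by rw [neg_E8 hr]; exact h2) t u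
  have h4 : chevE8.commTerms r s = [] := by
    rcases tb_cases hr hs h1 h2 with h5 | ⟨c, h5, h6, h7, h8, h9⟩
    · exact h5.2
    · omega
  have h5 : chevE8.commWord F r s t u = [] := by
    unfold ChevalleyDatum.commWord
    rw [h4]; rfl
  rw [h5] at h3
  have h6 : wu RF.tab (EF F) [] = 1 := rfl
  rw [h6, mul_one] at h3
  exact h3

/-- the structure constants -/
noncomputable def CC (F : Type*) [Field F] (r s : ℕ) : F := ((((chevE8.commTerms r s).headD (0, 0, 0, 0)).2.1 : ℤ) : F)

theorem CC_ne {r s : ℕ} (hr : r < 240) (hs : s < 240) (h1 : s ≠ r) (h2 : s ≠ 239 - r) (h : sm r s ≠ 255) : CC F r s ≠ 0 := by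
  rcases tb_cases hr hs h1 h2 with h5 | ⟨c, h5, h6, h7, h8, h9⟩
  · exact absurd h5.1 h
  · unfold CC
    rw [h5, List.headD_cons]
    rcases h7 with h7 | h7
    · rw [h7, Int.cast_one]; exact one_ne_zero
    · rw [h7, Int.cast_neg, Int.cast_one]; exact neg_ne_zero.2 one_ne_zero

theorem el_shift {r s : ℕ} (hr : r < 240) (hs : s < 240) (h1 : s ≠ r) (h2 : s ≠ 239 - r) (h : sm r s ≠ 255) (t u : F) :
    el r t * el s u = el s u * (el r t * el (sm r s) (CC F r s * t * u)) := by
  rcases tb_cases hr hs h1 h2 with h5 | ⟨c, h5, h6, h7, h8, h9⟩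
  · exact absurd h5.1 h
  apply Subtype.ext
  rw [Subgroup.coe_mul, Subgroup.coe_mul, Subgroup.coe_mul, coe_el hr, coe_el hs, coe_el (by rw [h6]; exact h9)]
  have h3 := comm_xu RF.tab (EF F) (r := r) (s := s) hr hs h1 (by rw [neg_E8 hr]; exact h2) t u
  have h10 : wu RF.tab (EF F) (chevE8.commWord F r s t u) = (xr RF (EF F) (sm r s) (CC F r s * t * u))⁻¹ := by
    unfold ChevalleyDatum.commWord CC
    rw [h5, List.headD_cons, xr_inv, h6]
    show xu RF.tab (EF F) c.1 ((c.2.1 : F) * (-t) ^ c.2.2.1 * u ^ c.2.2.2) * 1 = _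
    rw [h8, mul_one]
    show xu RF.tab (EF F) c.1 ((c.2.1 : F) * (-t) ^ 1 * u ^ 1) = xu RF.tab (EF F) c.1 (-((c.2.1 : F) * t * u))
    have e : ((c.2.1 : F) * (-t) ^ 1 * u ^ 1) = (-((c.2.1 : F) * t * u)) := by ring
    rw [e]
  rw [h10] at h3
  show xu RF.tab (EF F) r t * xu RF.tab (EF F) s u = xu RF.tab (EF F) s u * (xu RF.tab (EF F) r t * xr RF (EF F) (sm r s) (CC F r s * t * u))
  rw [← mul_assoc, h3]
  group

theorem el_refl {i : ℕ} (hi : i < 8) : ∃ n : chevE8.group F, ∀ s, s < 240 → ∃ η : F, η ≠ 0 ∧ ∀ t, n * el s t = el (rf i s) (η * t) * n := by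
  have hsim : chevE8.simple i < 240 := RF.simple_lt i hi
  refine ⟨⟨wu RF.tab (EF F) (chevE8.nWord (chevE8.simple i) 1), wu_mem RF.tab (EF F) ?_⟩, fun s hs => ?_⟩
  · intro p hp
    have hp' : p = (chevE8.simple i, (1 : F)) ∨ p = (chevE8.neg (chevE8.simple i), -1⁻¹) ∨ p = (chevE8.simple i, 1) := by
      unfold ChevalleyDatum.nWord at hp
      simpa using hp
    rcases hp' with rfl | rfl | rfl
    · exact xr_mem_group RF (EF F) hsim _
    · refine xr_mem_group RF (EF F) ?_ _
      rw [neg_E8 hsim]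
      show 239 - _ < 240
      omega
    · exact xr_mem_group RF (EF F) hsim _
  · have hrf := List.all_eq_true.1 (List.all_eq_true.1 chk_rf i (List.mem_range.2 hi)) s (List.mem_range.2 hs)
    rw [Bool.and_eq_true, beq_iff_eq, Nat.blt_eq] at hrf
    obtain ⟨η, hη, h⟩ := Cfsg.Agent.S1031.result (F := F) chevE8 hE8 i s hi hs
    refine ⟨(η : F), ?_, fun t => ?_⟩
    · rcases hη with rfl | rfl
      · rw [Int.cast_one]; exact one_ne_zero
      · rw [Int.cast_neg, Int.cast_one]; exact neg_ne_zero.2 one_ne_zero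
    · apply Subtype.ext
      rw [Subgroup.coe_mul, Subgroup.coe_mul, coe_el hs, coe_el hrf.2]
      apply Units.ext
      rw [Units.val_mul, Units.val_mul, coe_wu, ← hrf.1]
      exact h t

variable {V : Type*} [AddCommGroup V] [Module ℂ V]

/-- the action -/
noncomputable def mkAct (ρ : Representation ℂ (chevE8.group F) V) : Act F V where
  T r t := ρ (el r t)
  C r s := CC F r s
  add := by
    intro r hr s t v
    rw [el_add hr, map_mul]; rfl
  zero := by
    intro r hr v
    rw [el_zero hr, map_one]; rfl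
  comm := by
    intro r s hr hs h1 h2 h t u v
    have := congrArg (fun g => ρ g v) (el_comm hr hs h1 h2 h t u)
    simp only [map_mul, Module.End.mul_apply] at this
    exact this
  C_ne := fun r s hr hs h1 h2 h => CC_ne hr hs h1 h2 h
  shift := by
    intro r s hr hs h1 h2 h t u v
    have := congrArg (fun g => ρ g v) (el_shift hr hs h1 h2 h t u)
    simp only [map_mul, Module.End.mul_apply] at this
    exact this
  refl := by
    intro i hi
    obtain ⟨n, hn⟩ := el_refl (F := F) hi
    refine ⟨LinearEquiv.ofLinear (ρ n) (ρ n⁻¹) ?_ ?_, fun s hs => ?_⟩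
    · rw [← Module.End.mul_eq_comp, ← map_mul, mul_inv_cancel, map_one]; rfl
    · rw [← Module.End.mul_eq_comp, ← map_mul, inv_mul_cancel, map_one]; rfl
    · obtain ⟨η, hη, h⟩ := hn s hs
      refine ⟨η, hη, fun t v => ?_⟩
      have := congrArg (fun g => ρ g v) (h t)
      simp only [map_mul, Module.End.mul_apply] at this
      exact this

end Cfsg.Agent.E8Min
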