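import Cfsg.Agent.E8Min.Bridge
import Cfsg.Agent.CIT.E6Cls
import Cfsg.Agent.CIT.E8Cls
import Cfsg.Agent.H59.E8Ar
import Cfsg.Agent.CharBase.Central
import Cfsg.Agent.LSU.Irr

set_option autoImplicit false
set_option linter.unusedSectionVars false

/-!
# The smallest degree of a nontrivial representation of the group of type E8 (helper19)
-/

namespace Cfsg.Agent.E8Min

open Module Cfsg.Lie Cfsg.Agent.ChevU

variable {F : Type*} [Field F] [Fintype F]

theorem exists_psi (F : Type*) [Field F] [Fintype F] : ∃ ψ : AddChar F ℂ, ψ ≠ 0 := by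
  classical
  have : Nontrivial (AddChar F ℂ) := by
    have h1 : Fintype.card (AddChar F ℂ) = Fintype.card F := AddChar.card_eq
    rw [← Fintype.one_lt_card_iff_nontrivial, h1]
    exact Fintype.one_lt_card
  exact exists_ne 0

theorem exists_nt {k : ℕ} (ρ : Representation ℂ (chevE8.group F) (Fin k → ℂ)) (hirr : ρ.IsIrreducible) (hk : 2 ≤ k) :
    ∃ r, r < 240 ∧ ∃ (t : F) (v : Fin k → ℂ), ρ (el r t) v ≠ v := by
  by_contra hcon
  push Not at hcon
  obtain ⟨g, v, hgv⟩ := Cfsg.Agent.LSU.exists_ne_of_irr ρ hirr hk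
  apply hgv
  have hker : ∀ r, r < 240 → ∀ t : F, el r t ∈ MonoidHom.ker ρ := by
    intro r hr t
    rw [MonoidHom.mem_ker]
    exact LinearMap.ext fun w => hcon r hr t w
  have hall : ∀ (y : GL chevE8.Idx F) (hy : y ∈ chevE8.group F), (⟨y, hy⟩ : chevE8.group F) ∈ MonoidHom.ker ρ := by
    intro y hy
    have h2 : y ∈ (MonoidHom.ker ρ).map (chevE8.group F).subtype := by
      have h3 : chevE8.group F ≤ (MonoidHom.ker ρ).map (chevE8.group F).subtype := by
        unfold ChevalleyDatum.group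
        rw [Subgroup.closure_le]
        rintro x ⟨r, t, hx⟩
        have hr : (r : ℕ) < 240 := r.2
        refine ⟨el r t, hker r hr t, ?_⟩
        show ((el r t : chevE8.group F) : GL chevE8.Idx F) = x
        rw [coe_el hr]
        apply Units.ext
        rw [hx]
        exact x_of_lt (F := F) hr t
      exact h3 hy
    obtain ⟨z, hz, hzy⟩ := h2
    have : z = ⟨y, hy⟩ := Subtype.ext hzy
    rw [← this]
    exact hz
  have h4 := hall g g.2
  rw [MonoidHom.mem_ker] at h4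
  rw [h4]; rfl

theorem dvd_of_isIntegral {a b : ℤ} (hb : b ≠ 0) (h : IsIntegral ℤ ((a : ℂ) / (b : ℂ))) : b ∣ a := by
  have h1 : ((a : ℂ) / (b : ℂ)) = algebraMap ℚ ℂ ((a : ℚ) / (b : ℚ)) := by
    rw [map_div₀, map_intCast, map_intCast]
  rw [h1, isIntegral_algebraMap_iff (algebraMap ℚ ℂ).injective] at h
  obtain ⟨y, hy⟩ := IsIntegrallyClosed.isIntegral_iff.1 h
  have hb' : (b : ℚ) ≠ 0 := by exact_mod_cast hb
  rw [eq_div_iff hb'] at hy
  refine ⟨y, ?_⟩
  have : (y : ℚ) * b = a := hy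
  have h2 : y * b = a := by exact_mod_cast this
  rw [← h2, mul_comm]

theorem bound {k : ℕ} (ρ : Representation ℂ (chevE8.group F) (Fin k → ℂ)) (hirr : ρ.IsIrreducible) (hk : 2 ≤ k) :
    Fintype.card F * (Fintype.card F ^ 12 + 1) * (Fintype.card F ^ 10 + 1) * (Fintype.card F ^ 6 + 1) ≤ k := by
  classical
  by_contra hcon
  rw [not_le] at hcon
  set q := Fintype.card F with hq
  obtain ⟨ψ, hψ⟩ := exists_psi F
  obtain ⟨h6, htr⟩ := (mkAct ρ).main hψ (exists_nt ρ hirr hk) q rfl (by rw [Module.finrank_fin_fun]; exact hcon)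
  rw [Module.finrank_fin_fun] at h6 htr
  have hz : ((el 239 (1 : F) : chevE8.group F) : GL chevE8.Idx F) = xr RF (EF F) 239 1 := coe_el (by norm_num) 1
  have hz' : (((el 239 (1 : F) : chevE8.group F) : GL chevE8.Idx F) : Matrix chevE8.Idx chevE8.Idx F) = chevE8.x F (chevE8.nroots - 1) 1 := by
    rw [hz]; rfl
  have hcls := Cfsg.Agent.CIT.E8Cls.cls (F := F) hq.symm (el 239 1) hz'
  have : Finite (chevE8.group F) := inferInstance
  have hI : (Subgroup.centralizer {el 239 (1 : F)}).index = Nat.card {x // IsConj (el 239 (1 : F)) x} := by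
    have h1 := Cfsg.Agent.CIT.E6Cls.conj_card (el 239 (1 : F))
    have h2 := (Subgroup.centralizer {el 239 (1 : F)}).index_mul_card
    rw [← h1] at h2
    exact Nat.eq_of_mul_eq_mul_right Nat.card_pos h2
  have hint := Cfsg.Agent.CharBase.isIntegral_centralChar (χ := ρ.character) ⟨k, ρ, hirr, rfl⟩ (el 239 (1 : F))
  have hχ : ρ.character (el 239 (1 : F)) = (k : ℂ) - (q : ℂ) ^ 29 := htr 239 (by norm_num) 1 one_ne_zero
  have hχ1 : ρ.character 1 = (k : ℂ) := by
    rw [Representation.char_one, Module.finrank_fin_fun]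
  rw [hχ, hχ1, hI] at hint
  set I := Nat.card {x // IsConj (el 239 (1 : F)) x} with hIdef
  have h1 : ((I : ℂ) * ((k : ℂ) - (q : ℂ) ^ 29) / (k : ℂ)) = (((I : ℤ) * ((k : ℤ) - (q : ℤ) ^ 29) : ℤ) : ℂ) / ((k : ℤ) : ℂ) := by
    push_cast; ring
  rw [h1] at hint
  have h2 := dvd_of_isIntegral (by exact_mod_cast (by omega : k ≠ 0)) hint
  have h3 : (k : ℤ) ∣ (I : ℤ) * (q : ℤ) ^ 29 := by
    have h4 : (I : ℤ) * (q : ℤ) ^ 29 = (k : ℤ) * I - (I : ℤ) * ((k : ℤ) - (q : ℤ) ^ 29) := by ring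
    rw [h4]
    exact dvd_sub (dvd_mul_right _ _) h2
  have h5 : k ∣ I * q ^ 29 := by exact_mod_cast h3
  have h7 : k ∣ q ^ 29 * ((q ^ 12 + 1) * (q ^ 10 + 1) * (q ^ 6 + 1) * (q ^ 30 - 1)) := by
    rw [mul_comm (q ^ 29)]
    exact h5.trans (Nat.mul_dvd_mul_right hcls _)
  have hpp : IsPrimePow q := by
    rw [hq]
    exact FiniteField.isPrimePow_card F
  exact Cfsg.Agent.H59.E8Ar.ar8 (q := q) (D := k) (j := q * (q ^ 12 + 1) * (q ^ 10 + 1) * (q ^ 6 + 1) - k) hpp (by omega) (by omega) (by omega) h7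

end Cfsg.Agent.E8Min
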